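import Mathlib

/-! Lower bounds for the degree of a cross-characteristic representation via the orbit of a character of an
elementary abelian subgroup. -/

namespace Cfsg.Agent.Lib.CrossChar

open Matrix

universe u v

variable {F : Type*} [Field F] [Finite F] {V : Type*} [AddCommGroup V] [Module F V] [Finite V]

section
variable {L : Type*} [Field L]

/-- eigenvectors of distinct characters are independent -/
theorem linearIndependent_char {d : ℕ} {ι : Type*} {E : Type*} (T : E → Matrix (Fin d) (Fin d) L)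
    (χ : ι → E → L) (hχ : Function.Injective χ) (w : ι → Fin d → L) (hw : ∀ i, w i ≠ 0)
    (hT : ∀ i e, T e *ᵥ w i = χ i e • w i) : LinearIndependent L w := by
  classical
  rw [linearIndependent_iff']
  intro s
  induction s using Finset.induction with
  | empty => simp
  | insert a s ha ih =>
    intro c hc i hi
    have key : ∀ e, ∑ j ∈ s, (c j * (χ j e - χ a e)) • w j = 0 := by
      intro e
      have h1 := congrArg (fun x => T e *ᵥ x) hc
      simp only [Matrix.mulVec_sum, Matrix.mulVec_smul, hT, smul_smul, Matrix.mulVec_zero] at h1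
      have h2 := congrArg (fun x => χ a e • x) hc
      simp only [Finset.smul_sum, smul_smul, smul_zero] at h2
      rw [Finset.sum_insert ha] at h1 h2
      calc ∑ j ∈ s, (c j * (χ j e - χ a e)) • w j
          = (∑ j ∈ s, (c j * χ j e) • w j) - ∑ j ∈ s, (χ a e * c j) • w j := by
            rw [← Finset.sum_sub_distrib]
            exact Finset.sum_congr rfl fun j _ => by rw [← sub_smul]; congr 1; ring
        _ = ((c a * χ a e) • w a + ∑ j ∈ s, (c j * χ j e) • w j) -
              ((χ a e * c a) • w a + ∑ j ∈ s, (χ a e * c j) • w j) := by rw [mul_comm (c a)]; abel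
        _ = 0 := by rw [h1, h2, sub_self]
    have hs : ∀ j ∈ s, c j = 0 := by
      intro j hj
      have hne : χ j ≠ χ a := fun h => ha (hχ h ▸ hj)
      obtain ⟨e, he⟩ := Function.ne_iff.1 hne
      rcases mul_eq_zero.1 (ih _ (key e) j hj) with h | h
      · exact h
      · exact absurd (sub_eq_zero.1 h) he
    rcases Finset.mem_insert.1 hi with rfl | hi
    · rw [Finset.sum_insert ha, Finset.sum_eq_zero (fun j hj => by rw [hs j hj, zero_smul]), add_zero,
        smul_eq_zero] at hc
      exact hc.resolve_right (hw _)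
    · exact hs i hi

/-- every nontrivial character of a finite vector space is a fixed character composed with a functional -/
theorem exists_functional (χ : AddChar V L) (hχ : χ ≠ 1) :
    ∃ (ψ : AddChar F L) (f : Module.Dual F V), f ≠ 0 ∧ (∀ v, χ v = ψ (f v)) ∧
      (∀ g h : Module.Dual F V, (∀ v, ψ (g v) = ψ (h v)) → g = h) := by
  classical
  haveI : Fintype V := Fintype.ofFinite V
  haveI : Fintype F := Fintype.ofFinite F
  obtain ⟨v, hv⟩ : ∃ v, χ v ≠ 1 := by
    by_contra h
    push Not at h
    exact hχ (DFunLike.ext _ _ fun x => by rw [h, AddChar.one_apply])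
  let ψ : AddChar F L := χ.compAddMonoidHom (LinearMap.toSpanSingleton F V v).toAddMonoidHom
  have hψ : ψ 1 ≠ 1 := by simpa [ψ] using hv
  have hinj : ∀ g h : Module.Dual F V, (∀ v, ψ (g v) = ψ (h v)) → g = h := by
    intro g h hgh
    by_contra hne
    obtain ⟨x, hx⟩ : ∃ x, (g - h) x ≠ 0 := by
      by_contra hh; push Not at hh
      exact hne (LinearMap.ext fun x => sub_eq_zero.1 (hh x))
    apply hψ
    have h1 := hgh (((g - h) x)⁻¹ • x)
    have e : g (((g - h) x)⁻¹ • x) = h (((g - h) x)⁻¹ • x) + 1 := by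
      simp only [map_smul, smul_eq_mul, LinearMap.sub_apply] at hx ⊢
      field_simp; ring
    rw [e, AddChar.map_add_eq_mul] at h1
    have hu : ψ (h (((g - h) x)⁻¹ • x)) ≠ 0 := by
      intro h0
      have := ψ.map_add_eq_mul (h (((g - h) x)⁻¹ • x)) (-h (((g - h) x)⁻¹ • x))
      rw [add_neg_cancel, AddChar.map_zero_eq_one, h0, zero_mul] at this
      exact one_ne_zero this
    exact mul_left_cancel₀ hu (h1.trans (mul_one _).symm)
  haveI : Finite (Module.Dual F V) := Finite.of_injective _ DFunLike.coe_injective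
  haveI : Fintype (Module.Dual F V) := Fintype.ofFinite _
  let Φ : Module.Dual F V → AddChar V L := fun g => ψ.compAddMonoidHom g.toAddMonoidHom
  have hΦ : Function.Injective Φ := fun g h e => hinj g h fun v => DFunLike.congr_fun e v
  have hcard : Fintype.card (Module.Dual F V) = Fintype.card V := by
    rw [Module.card_eq_pow_finrank (K := F) (V := Module.Dual F V), Module.card_eq_pow_finrank (K := F) (V := V),
      Subspace.dual_finrank_eq]
  obtain ⟨f, hf⟩ : ∃ f, Φ f = χ := by
    by_contra hh
    push Not at hh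
    let Φ' : Option (Module.Dual F V) → AddChar V L := fun o => o.elim χ Φ
    have hΦ' : Function.Injective Φ' := by
      rintro (_ | a) (_ | b) h
      · rfl
      · exact absurd h.symm (hh b)
      · exact absurd h (hh a)
      · exact congrArg some (hΦ h)
    have hli : LinearIndependent L (fun o => ((Φ' o : AddChar V L) : V → L)) :=
      (linearIndependent_monoidHom (Multiplicative V) L).comp (fun o => (Φ' o).toMonoidHom)
        (fun a b h => hΦ' (AddChar.toMonoidHomEquiv.injective h))
    have := hli.fintype_card_le_finrank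
    rw [Module.finrank_pi, Fintype.card_option, hcard] at this
    omega
  refine ⟨ψ, f, ?_, fun v => by rw [← hf]; rfl, hinj⟩
  rintro rfl
  apply hv
  rw [← hf]
  simp [Φ]

end

/-- The orbit bound. -/
theorem orbit_le {G : Type*} [Group G] {K : Type*} [Field K] (hK : (Nat.card V : K) ≠ 0) {d : ℕ}
    (ρ : G →* GL (Fin d) K) (t : V → G) (ht : ∀ a b, t (a + b) = t a * t b) (htn : ∃ v, ρ (t v) ≠ 1)
    {I : Type*} (σ : I → V →ₗ[F] V) (hσ : ∀ i, ∃ g : G, ∀ v, g * t v * g⁻¹ = t (σ i v)) :
    ∃ f : Module.Dual F V, f ≠ 0 ∧ ∀ (J : Type v) [Fintype J] (s : J → I),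
      Function.Injective (fun j => f.comp (σ (s j))) → Fintype.card J ≤ d := by
  classical
  let L := AlgebraicClosure K
  let ι : K →+* L := algebraMap K L
  let R : G →* GL (Fin d) L := (Matrix.GeneralLinearGroup.map ι).comp ρ
  let T : V → Matrix (Fin d) (Fin d) L := fun v => (R (t v) : Matrix (Fin d) (Fin d) L)
  have ht0 : t 0 = 1 := by
    have := ht 0 0
    rwa [add_zero, left_eq_mul] at this
  have hT0 : T 0 = 1 := by simp [T, ht0]
  have hTadd : ∀ a b, T (a + b) = T a * T b := fun a b => by simp [T, ht]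
  obtain ⟨v₀, hv₀⟩ := htn
  have hTv : T v₀ ≠ 1 := by
    intro h
    apply hv₀
    apply Units.ext
    ext i j
    apply ι.injective
    have := congrFun (congrFun h i) j
    simp [T, R] at this
    rw [this]
    simp [Matrix.one_apply, apply_ite ι]
  set N := Nat.card V with hN
  have hNpos : 0 < N := Nat.card_pos
  have hTn : ∀ k : ℕ, T (k • v₀) = T v₀ ^ k := by
    intro k
    induction k with
    | zero => simp [hT0]
    | succ k ih => rw [succ_nsmul, hTadd, ih, pow_succ]
  have hpow : T v₀ ^ N = 1 := by rw [← hTn, hN, card_nsmul_eq_zero', hT0]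
  let A : V → Module.End L (Fin d → L) := fun v => Matrix.toLin' (T v)
  have hA : ∀ v w, A v w = T v *ᵥ w := fun v w => Matrix.toLin'_apply _ _
  -- a nontrivial eigenvalue of `T v₀`
  obtain ⟨z, hz, x, hx, hxz⟩ : ∃ z : L, z ≠ 1 ∧ ∃ x : (Fin d → L), x ≠ 0 ∧ T v₀ *ᵥ x = z • x := by
    set S : Matrix (Fin d) (Fin d) L := ∑ k ∈ Finset.range N, T v₀ ^ k with hS
    have hSmul : (T v₀ - 1) * S = 0 := by rw [hS, mul_geom_sum, hpow, sub_self]
    by_contra hno
    push Not at hno
    have hinj : ∀ y : (Fin d → L), S *ᵥ y = 0 → y = 0 := by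
      intro y hy
      by_contra hy0
      let W : Submodule L (Fin d → L) := LinearMap.ker (Matrix.toLin' S)
      haveI : Nontrivial W := ⟨⟨⟨y, LinearMap.mem_ker.2 ((Matrix.toLin'_apply _ _).trans hy)⟩, 0, fun h => hy0 (congrArg Subtype.val h)⟩⟩
      have hW : ∀ w ∈ W, A v₀ w ∈ W := by
        intro w hw
        have hcomm : S * T v₀ = T v₀ * S := (Commute.sum_left _ _ _ fun k _ => (Commute.refl _).pow_left k).eq
        rw [LinearMap.mem_ker, Matrix.toLin'_apply] at hw ⊢
        rw [hA, Matrix.mulVec_mulVec, hcomm,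
          ← Matrix.mulVec_mulVec, hw, Matrix.mulVec_zero]
      obtain ⟨z, hz⟩ := Module.End.exists_eigenvalue ((A v₀).restrict hW)
      obtain ⟨⟨x, hxW⟩, hx⟩ := hz.exists_hasEigenvector
      have hx0 : x ≠ 0 := fun h => hx.2 (Subtype.ext h)
      have hxz : T v₀ *ᵥ x = z • x := by
        have := congrArg Subtype.val hx.apply_eq_smul
        simpa [A] using this
      by_cases hz1 : z = 1
      · subst hz1
        rw [one_smul] at hxz
        have hk : ∀ k : ℕ, T v₀ ^ k *ᵥ x = x := by
          intro k; induction k with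
          | zero => simp
          | succ k ih => rw [pow_succ, ← Matrix.mulVec_mulVec, hxz, ih]
        have : S *ᵥ x = (N : L) • x := by
          rw [hS, Matrix.sum_mulVec]
          simp [hk]
          funext i; simp
        rw [LinearMap.mem_ker, Matrix.toLin'_apply] at hxW
        rw [hxW] at this
        have hNL : (N : L) ≠ 0 := by rw [← map_natCast ι]; exact (map_ne_zero ι).2 hK
        exact smul_ne_zero hNL hx0 this.symm
      · exact hno z hz1 x hx0 hxz
    apply hTv
    have hdet : S.det ≠ 0 := fun h => by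
      obtain ⟨y, hy, hy'⟩ := Matrix.exists_mulVec_eq_zero_iff.2 h
      exact hy (hinj y hy')
    have := congrArg (fun X => X * S⁻¹) hSmul
    simp only [mul_assoc, Matrix.mul_nonsing_inv S (isUnit_iff_ne_zero.2 hdet), mul_one, zero_mul] at this
    exact sub_eq_zero.1 this
  -- a common eigenvector inside that eigenspace
  let Good : Submodule L (Fin d → L) → Prop := fun W => W ≠ ⊥ ∧ W ≤ (A v₀).eigenspace z ∧ ∀ v, ∀ w ∈ W, A v w ∈ W
  have hcommA : ∀ a b w, A a (A b w) = A b (A a w) := by
    intro a b w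
    rw [hA, hA, hA, hA, Matrix.mulVec_mulVec, Matrix.mulVec_mulVec, ← hTadd, ← hTadd, add_comm]
  have hgood0 : Good ((A v₀).eigenspace z) := by
    refine ⟨?_, le_rfl, fun v w hw => ?_⟩
    · intro h
      have : x ∈ (A v₀).eigenspace z := Module.End.mem_eigenspace_iff.2 (by simpa [A] using hxz)
      rw [h] at this
      exact hx this
    · rw [Module.End.mem_eigenspace_iff] at hw ⊢
      rw [hcommA, hw, map_smul]
  have hex : ∃ n, ∃ W, Good W ∧ Module.finrank L W = n := ⟨_, _, hgood0, rfl⟩
  obtain ⟨W, hWg, hWn⟩ := Nat.find_spec hex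
  obtain ⟨w, hwW, hw0⟩ := Submodule.exists_mem_ne_zero_of_ne_bot hWg.1
  have heig : ∀ v, ∃ c : L, T v *ᵥ w = c • w := by
    intro v
    haveI : Nontrivial W := ⟨⟨⟨w, hwW⟩, 0, fun h => hw0 (congrArg Subtype.val h)⟩⟩
    obtain ⟨c, hc⟩ := Module.End.exists_eigenvalue ((A v).restrict (hWg.2.2 v))
    obtain ⟨⟨y, hyW⟩, hy⟩ := hc.exists_hasEigenvector
    have hyc : A v y = c • y := congrArg Subtype.val hy.apply_eq_smul
    have hsub : W ⊓ (A v).eigenspace c = W := by
      refine Submodule.eq_of_le_of_finrank_le inf_le_left ?_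
      rw [hWn]
      refine Nat.find_min' hex ⟨_, ⟨?_, inf_le_left.trans hWg.2.1, ?_⟩, rfl⟩
      · intro h
        have : y ∈ W ⊓ (A v).eigenspace c := ⟨hyW, Module.End.mem_eigenspace_iff.2 hyc⟩
        rw [h] at this
        exact hy.2 (Subtype.ext this)
      · rintro u y' ⟨h1, h2⟩
        refine ⟨hWg.2.2 u y' h1, ?_⟩
        rw [SetLike.mem_coe, Module.End.mem_eigenspace_iff] at h2 ⊢
        rw [hcommA, h2, map_smul]
    rw [← hsub] at hwW
    exact ⟨c, by simpa [A] using Module.End.mem_eigenspace_iff.1 hwW.2⟩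
  choose c hc using heig
  let χ : AddChar V L :=
    { toFun := c
      map_zero_eq_one' := smul_left_injective L hw0 (by
        change c 0 • w = (1 : L) • w
        rw [← hc, hT0, one_smul, Matrix.one_mulVec])
      map_add_eq_mul' := fun a b => smul_left_injective L hw0 (by
        change c (a + b) • w = (c a * c b) • w
        rw [← hc, hTadd, ← Matrix.mulVec_mulVec, hc, Matrix.mulVec_smul, hc, smul_smul, mul_comm]) }
  have hχ : χ ≠ 1 := by
    intro h
    apply hz
    have h1 : c v₀ = 1 := DFunLike.congr_fun h v₀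
    have h2 : T v₀ *ᵥ w = z • w := by
      have := Module.End.mem_eigenspace_iff.1 (hWg.2.1 hwW)
      simpa [A] using this
    rw [hc, h1] at h2
    exact (smul_left_injective L hw0 h2).symm
  obtain ⟨ψ, f, hf0, hfχ, hψinj⟩ := exists_functional (F := F) χ hχ
  refine ⟨f, hf0, fun J _ s hs => ?_⟩
  choose g hg using hσ
  let wj : J → (Fin d → L) := fun j => (((R (g (s j)))⁻¹ : GL (Fin d) L) : Matrix (Fin d) (Fin d) L) *ᵥ w
  have hwj : ∀ j, wj j ≠ 0 := by
    intro j h
    apply hw0
    have this : (R (g (s j)) : Matrix (Fin d) (Fin d) L) *ᵥ wj j = 0 := by rw [h, Matrix.mulVec_zero]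
    simp only [wj] at this
    rw [Matrix.mulVec_mulVec, ← Units.val_mul, mul_inv_cancel, Units.val_one, Matrix.one_mulVec] at this
    exact this
  have hTw : ∀ j v, T v *ᵥ wj j = ψ (f (σ (s j) v)) • wj j := by
    intro j v
    have e : R (t v) * (R (g (s j)))⁻¹ = (R (g (s j)))⁻¹ * R (t (σ (s j) v)) := by
      rw [← hg (s j) v, map_mul, map_mul, map_inv]; group
    simp only [T, wj]
    rw [Matrix.mulVec_mulVec, ← Units.val_mul, e, Units.val_mul, ← Matrix.mulVec_mulVec, ← hfχ, show (R (t (σ (s j) v)) : Matrix (Fin d) (Fin d) L) *ᵥ w =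
      c (σ (s j) v) • w from hc _, Matrix.mulVec_smul]
    rfl
  have hli := linearIndependent_char T (fun j v => ψ (f (σ (s j) v))) (fun a b hab => hs (hψinj _ _ fun v => congrFun hab v))
    wj hwj (fun j v => hTw j v)
  simpa using hli.fintype_card_le_finrank

end Cfsg.Agent.Lib.CrossChar
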