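import Cfsg.Agent.Lib.CrossChar.Basic

/-! The bound `q^(n-1) - 1` for `SL_n(q)`, `n ≥ 3`. -/

namespace Cfsg.Agent.Lib.CrossChar

open Matrix

variable {F : Type*} [Field F]

/-- a matrix of determinant one with prescribed nonzero column -/
theorem exists_sl_mulVec_single {m : ℕ} (j k : Fin m) (hjk : j ≠ k) (w : Fin m → F) (hj : w j ≠ 0) :
    ∃ A : Matrix.SpecialLinearGroup (Fin m) F, (A : Matrix (Fin m) (Fin m) F) *ᵥ Pi.single j 1 = w := by
  let D : Matrix (Fin m) (Fin m) F := Matrix.diagonal (Function.update 1 k (w j)⁻¹)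
  refine ⟨⟨(1 : Matrix (Fin m) (Fin m) F).updateCol j w * D, ?_⟩, ?_⟩
  · rw [det_mul, ← Matrix.cramer_apply, Matrix.cramer_one]
    simp [D, Finset.prod_update_of_mem, hj]
  · change ((1 : Matrix (Fin m) (Fin m) F).updateCol j w * D) *ᵥ Pi.single j 1 = w
    rw [← Matrix.mulVec_mulVec]
    have : D *ᵥ Pi.single j 1 = Pi.single j 1 := by
      ext i
      simp only [D, Matrix.mulVec_diagonal]
      by_cases hi : i = j
      · subst hi; simp [hjk]
      · simp [hi]
    rw [this, Matrix.mulVec_single_one]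
    ext i; simp

theorem sl_transitive {m : ℕ} (hm : 2 ≤ m) (w w' : Fin m → F) (hw : w ≠ 0) (hw' : w' ≠ 0) :
    ∃ A : Matrix.SpecialLinearGroup (Fin m) F, (A : Matrix (Fin m) (Fin m) F) *ᵥ w = w' := by
  classical
  haveI : Nontrivial (Fin m) := Fin.nontrivial_iff_two_le.2 hm
  have key : ∀ (v : Fin m → F) (i : Fin m), v ≠ 0 →
      ∃ A : Matrix.SpecialLinearGroup (Fin m) F, (A : Matrix (Fin m) (Fin m) F) *ᵥ v = Pi.single i 1 := by
    intro v i hv
    obtain ⟨j, hj⟩ := Function.ne_iff.1 hv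
    obtain ⟨k, hk⟩ := exists_ne j
    obtain ⟨l, hl⟩ := exists_ne i
    obtain ⟨A, hA⟩ := exists_sl_mulVec_single j k hk.symm v hj
    have e : ∃ B : Matrix.SpecialLinearGroup (Fin m) F,
        (B : Matrix (Fin m) (Fin m) F) *ᵥ Pi.single j 1 = Pi.single i 1 := by
      by_cases hij : i = j
      · exact ⟨1, by subst hij; rw [Matrix.SpecialLinearGroup.coe_one, one_mulVec]⟩
      · obtain ⟨B, hB⟩ := exists_sl_mulVec_single (F := F) j i (Ne.symm hij)
          (Pi.single j 1 + Pi.single i 1) (by simp [Ne.symm hij])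
        obtain ⟨C, hC⟩ := exists_sl_mulVec_single (F := F) i l hl.symm
          (Pi.single j 1 + Pi.single i 1) (by simp [hij])
        refine ⟨C⁻¹ * B, ?_⟩
        rw [Matrix.SpecialLinearGroup.coe_mul, ← Matrix.mulVec_mulVec, hB, ← hC, Matrix.mulVec_mulVec,
          ← Matrix.SpecialLinearGroup.coe_mul, inv_mul_cancel, Matrix.SpecialLinearGroup.coe_one, one_mulVec]
    obtain ⟨B, hB⟩ := e
    refine ⟨B * A⁻¹, ?_⟩
    nth_rewrite 1 [← hA]
    rw [Matrix.mulVec_mulVec, ← Matrix.SpecialLinearGroup.coe_mul, inv_mul_cancel_right, hB]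
  obtain ⟨A, hA⟩ := key w ⟨0, by omega⟩ hw
  obtain ⟨B, hB⟩ := key w' ⟨0, by omega⟩ hw'
  refine ⟨B⁻¹ * A, ?_⟩
  rw [Matrix.SpecialLinearGroup.coe_mul, ← Matrix.mulVec_mulVec, hA, ← hB, Matrix.mulVec_mulVec,
    ← Matrix.SpecialLinearGroup.coe_mul, inv_mul_cancel, Matrix.SpecialLinearGroup.coe_one, one_mulVec]

theorem card_ne_zero_of_ringChar_ne [Fintype F] {K : Type*} [Field K] (hK : ringChar K ≠ ringChar F) {V : Type*}
    (k : ℕ) (hV : Nat.card V = Fintype.card F ^ k) : (Nat.card V : K) ≠ 0 := by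
  intro h
  haveI := ringChar.charP F
  obtain ⟨e, hp, he⟩ := FiniteField.card F (ringChar F)
  rw [hV, he, ← pow_mul, Nat.cast_pow] at h
  rcases Nat.eq_zero_or_pos ((e : ℕ) * k) with h0 | h0
  · rw [h0, pow_zero] at h; exact one_ne_zero h
  · have h1 : ((ringChar F : ℕ) : K) = 0 := pow_eq_zero_iff h0.ne' |>.1 h
    rcases (Nat.dvd_prime hp).1 (ringChar.dvd h1) with h2 | h2
    · haveI := ringChar.charP K
      exact CharP.ringChar_ne_one h2
    · exact hK h2

theorem sl_degree_bound [Fintype F] {q : ℕ} (hq : Fintype.card F = q) (n : ℕ) (hn : 3 ≤ n)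
    {K : Type*} [Field K] (hK : ringChar K ≠ ringChar F) {d : ℕ}
    (ρ : Matrix.SpecialLinearGroup (Fin n) F →* GL (Fin d) K)
    (hker : ρ.ker ≤ Subgroup.center (Matrix.SpecialLinearGroup (Fin n) F)) :
    q ^ (n - 1) - 1 ≤ d := by
  classical
  obtain ⟨m, rfl⟩ : ∃ m, n = 1 + m := ⟨n - 1, by omega⟩
  let e : Fin 1 ⊕ Fin m ≃ Fin (1 + m) := finSumFinEquiv
  let M : (Fin m → F) → Matrix (Fin (1 + m)) (Fin (1 + m)) F := fun v =>
    Matrix.reindex e e (fromBlocks 1 (Matrix.replicateRow (Fin 1) v) 0 1)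
  let t : (Fin m → F) → Matrix.SpecialLinearGroup (Fin (1 + m)) F := fun v =>
    ⟨M v, by simp only [M]; rw [det_reindex_self, det_fromBlocks_zero₂₁, det_one, det_one, one_mul]⟩
  have hmm : ∀ X Y : Matrix (Fin 1 ⊕ Fin m) (Fin 1 ⊕ Fin m) F,
      Matrix.reindex e e X * Matrix.reindex e e Y = Matrix.reindex e e (X * Y) := fun X Y => by
    simp [Matrix.submatrix_mul_equiv]
  have ht : ∀ a b, t (a + b) = t a * t b := by
    intro a b
    apply Subtype.ext
    change M (a + b) = M a * M b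
    simp only [M, hmm, fromBlocks_multiply]
    congr 2 <;> ext i j <;> simp [Matrix.replicateRow_apply, add_comm]
  have htn : ∃ v, ρ (t v) ≠ 1 := by
    refine ⟨Pi.single ⟨0, by omega⟩ 1, fun h => ?_⟩
    obtain ⟨r, -, hr⟩ := Matrix.SpecialLinearGroup.mem_center_iff.1 (hker (MonoidHom.mem_ker.2 h))
    have := congrFun (congrFun hr (e (.inl 0))) (e (.inr ⟨0, by omega⟩))
    change _ = M _ _ _ at this
    simp [M] at this
  let g : Matrix.SpecialLinearGroup (Fin m) F → Matrix.SpecialLinearGroup (Fin (1 + m)) F := fun A =>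
    ⟨Matrix.reindex e e (fromBlocks 1 0 0 (A : Matrix (Fin m) (Fin m) F)), by
      rw [det_reindex_self, det_fromBlocks_zero₂₁, det_one, one_mul]; exact A.2⟩
  let σ : Matrix.SpecialLinearGroup (Fin m) F → ((Fin m → F) →ₗ[F] (Fin m → F)) := fun A =>
    Matrix.vecMulLinear (A : Matrix (Fin m) (Fin m) F)
  have hσ : ∀ A, ∃ x : Matrix.SpecialLinearGroup (Fin (1 + m)) F, ∀ v, x * t v * x⁻¹ = t (σ A v) := by
    intro A
    refine ⟨(g A)⁻¹, fun v => ?_⟩
    rw [inv_inv, mul_assoc, inv_mul_eq_iff_eq_mul]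
    apply Subtype.ext
    change M v * Matrix.reindex e e (fromBlocks 1 0 0 (A : Matrix (Fin m) (Fin m) F)) =
      Matrix.reindex e e (fromBlocks 1 0 0 (A : Matrix (Fin m) (Fin m) F)) * M (σ A v)
    simp only [M, hmm, fromBlocks_multiply]
    congr 2 <;> ext i j <;> simp [σ, Matrix.replicateRow_apply, Matrix.mul_apply, Matrix.vecMul, dotProduct]
  obtain ⟨f, hf, hbound⟩ := orbit_le (F := F) (card_ne_zero_of_ringChar_ne hK m (by simp [Nat.card_eq_fintype_card]))
    ρ t ht htn σ hσ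
  let w : Fin m → F := fun i => f (Pi.single i 1)
  have hfw : ∀ v, f v = v ⬝ᵥ w := by
    intro v
    conv_lhs => rw [pi_eq_sum_univ' v]
    simp [w, dotProduct]
  have hw : w ≠ 0 := fun h => hf (LinearMap.ext fun v => by simp [hfw, h])
  let J := {x : Fin m → F // x ≠ 0}
  choose s hs using fun x : J => sl_transitive (F := F) (show 2 ≤ m by omega) w x.1 hw x.2
  have hinj : Function.Injective (fun x : J => f.comp (σ (s x))) := by
    intro x y hxy
    apply Subtype.ext
    funext i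
    have := LinearMap.congr_fun hxy (Pi.single i 1)
    simp [σ, hfw, ← Matrix.dotProduct_mulVec] at this
    rwa [← hs x, ← hs y]
  have := hbound J s hinj
  simpa [J, hq, Fintype.card_subtype_compl] using this

end Cfsg.Agent.Lib.CrossChar
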